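import Cfsg.Agent.H959.T5.Tools
import Cfsg.Agent.H669.SY.Gen

/-!
# S3854, primes `p ≥ 5`: further criteria (helper478, tasks 2798, 2802)

* `NoTE.of_not_dvd` : `p ∤ |K|`;
* `NoTE.of_conj` : every element of order `p` has a conjugate in the proper subgroup `L`, `p ∤ |Rad L|`;
* `NoTE.of_class` : every element of order `p` commutes with a conjugate of `a`, `p ∤ |Rad C(a)|`.
-/

set_option autoImplicit false
set_option linter.unusedSectionVars false

namespace Cfsg.Agent.H478.T5

open Cfsg Subgroup Cfsg.Agent.H459.Rad Cfsg.Agent.H301.SY Cfsg.Agent.SignalizersComponents.ComponentExists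
open Cfsg.Agent.H959.T5 Cfsg.Agent.H669.SY

variable {K : Type*} [Group K] [Finite K] {p : ℕ} [hp : Fact p.Prime]

theorem NoTE.of_not_dvd (h : ¬ p ∣ Nat.card K) : NoTE p K := fun x hx _ _ => h (hx ▸ orderOf_dvd_natCard x)

/-- every element of order `p` has a conjugate in the proper subgroup `L` -/
theorem NoTE.of_conj {L : Subgroup K} (hL : L ≠ ⊤) (hr : ¬ p ∣ Nat.card (radIn L))
    (h : ∀ x : K, orderOf x = p → ∃ g : K, g * x * g⁻¹ ∈ L) : NoTE p K := by
  refine NoTE.of_sub fun x hx => ?_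
  obtain ⟨g, hg⟩ := h x hx
  refine ⟨L.map (MulAut.conj g⁻¹).toMonoidHom, ?_, ⟨g * x * g⁻¹, hg, ?_⟩, ?_⟩
  · intro h1
    apply hL
    rw [eq_top_iff]
    intro y _
    have h2 : MulAut.conj g⁻¹ y ∈ L.map (MulAut.conj g⁻¹).toMonoidHom := by rw [h1]; exact mem_top _
    obtain ⟨z, hz, h3⟩ := h2
    have h4 : z = y := (MulAut.conj g⁻¹).injective h3
    rwa [← h4]
  · change g⁻¹ * (g * x * g⁻¹) * g⁻¹⁻¹ = x
    group
  · rw [radIn_conj, Subgroup.card_map_of_injective (MulAut.conj g⁻¹).injective]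
    exact hr

/-- every element of order `p` commutes with a conjugate of `a` -/
theorem NoTE.of_class (hZ : center K = ⊥) {a : K} (ha : a ≠ 1)
    (hr : ¬ p ∣ Nat.card (radIn (centralizer ({a} : Set K))))
    (h : ∀ x : K, orderOf x = p → ∃ t : K, IsConj a t ∧ t * x = x * t) : NoTE p K := by
  refine NoTE.of_conj (L := centralizer ({a} : Set K)) ?_ hr fun x hx => ?_
  · intro h1
    apply ha
    have h2 : a ∈ center K := by
      rw [mem_center_iff]
      intro g
      exact (mem_centralizer_iff.1 (show g ∈ centralizer ({a} : Set K) by rw [h1]; exact mem_top _) a rfl).symm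
    rwa [hZ, mem_bot] at h2
  · obtain ⟨t, hat, htx⟩ := h x hx
    obtain ⟨c, hc⟩ := isConj_iff.1 hat
    refine ⟨c⁻¹, ?_⟩
    rw [mem_centralizer_singleton_iff]
    have h1 : a = c⁻¹ * t * c := by rw [← hc]; group
    rw [h1]
    calc c⁻¹ * x * c⁻¹⁻¹ * (c⁻¹ * t * c) = c⁻¹ * (x * t) * c := by group
      _ = c⁻¹ * (t * x) * c := by rw [htx]
      _ = _ := by group

/-- a simple subgroup of index prime to `p` -/
theorem noTE_of_simple_index {H : Subgroup K} {n m : ℕ}
    (hK : Nat.card K = n * m) (hH : Nat.card ↥H = n) (hs : IsSimpleGroup ↥H) (hsol : ¬ Group.IsSolvable ↥H)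
    (hm : ¬ p ∣ m) (hm1 : m ≠ 1) : NoTE p K := by
  have h1 := H.card_mul_index
  rw [hH, hK] at h1
  have hn0 : 0 < n := by rw [← hH]; exact Nat.card_pos
  have hi : H.index = m := Nat.eq_of_mul_eq_mul_left hn0 h1
  obtain ⟨Q⟩ : Nonempty (Sylow p ↥H) := inferInstance
  have hidx : ¬ p ∣ ((Q : Subgroup ↥H).map H.subtype).index := by
    have h2 : ((Q : Subgroup ↥H).map H.subtype).index = (Q : Subgroup ↥H).index * H.index := by
      have h3 := ((Q : Subgroup ↥H).map H.subtype).card_mul_index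
      rw [card_map_of_injective H.subtype_injective, ← H.card_mul_index, ← (Q : Subgroup ↥H).card_mul_index,
        mul_assoc] at h3
      exact Nat.eq_of_mul_eq_mul_left Nat.card_pos h3
    rw [h2, hi]
    intro h
    rcases hp.out.dvd_mul.1 h with h | h
    · exact Q.not_dvd_index h
    · exact hm h
  have hcr : Nat.card ↥(radIn H) = 1 := by
    have h2 : Nat.card ↥(radIn H) = Nat.card ↥(solvableRadical ↥H) :=
      Subgroup.card_map_of_injective H.subtype_injective
    rw [h2, rad_eq_bot_of_simple hsol, card_bot]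
  refine NoTE.of_sylow (L := H) ?_ ((Q.isPGroup'.map H.subtype).toSylow hidx) ?_ ?_
  · intro ht
    rw [ht, index_top] at hi
    exact hm1 hi.symm
  · exact map_subtype_le _
  · rw [hcr]
    intro h
    exact hp.out.one_lt.ne' (Nat.dvd_one.1 h)

end Cfsg.Agent.H478.T5
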