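import Cfsg.Agent.H478.T5.Gen
import Cfsg.Agent.H669.SY.Th

/-!
# S3854, primes `p ≥ 5`: the row of the Thompson group (helper478, task 2798)
-/

set_option autoImplicit false

namespace Cfsg.Agent.H478.T5

open Cfsg Subgroup Cfsg.Agent.H459.Rad Cfsg.Agent.H301.SY Cfsg.Agent.SignalizersComponents.ComponentExists
open Cfsg.Agent.H959.T5

namespace Th

open Cfsg.Agent.Th Cfsg.Agent.Th.Word Cfsg.Agent.Th.IndexUpper Cfsg.Agent.MonsterX.ThOneClass
open Cfsg.Agent.H669.SY.Th

theorem noTE_five_seven {p : ℕ} [hp : Fact p.Prime] (h : p = 5 ∨ p = 7) : NoTE p Spor.Th := by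
  have := H513.NilpTh.finite
  refine NoTE.of_class Main1700.center_eq_bot Main475.a_ne_one (radC ?_) fun x hx => ?_
  · rcases h with rfl | rfl <;> norm_num
  · have h1 : ∃ t : Spor.Th, orderOf t = 2 ∧ t * x = x * t := by
      rcases h with rfl | rfl
      · exact H513.NilpTh.involution x hx
      · exact ThType.Seven.exists_involution_Th Main1700.isTh hx
    obtain ⟨t, ht, htx⟩ := h1
    exact ⟨t, oneClass _ _ orderOf_a ht, htx⟩

/-- an element of order `8` -/
theorem exists_eight : ∃ y : Spor.Th, y ^ 8 = 1 ∧ y ^ 4 ≠ 1 := by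
  have R := gTh_relK
  have h1 : (gTh 3 * gTh 4) ^ 4 = gTh 1 := (mul_inv_eq_one.1 R.acd).symm
  refine ⟨gTh 3 * gTh 4, ?_, ?_⟩
  · rw [show 8 = 4 * 2 from rfl, pow_mul, h1]
    exact R.a2
  · rw [h1]
    exact Main475.a_ne_one

end Th

/-- **task 2798, Th** -/
theorem noTE_th {K : Type*} [Group K] [Finite K] [IsSimpleGroup K] (h : Cfsg.Spor.IsoTh K) {p : ℕ} [hp : Fact p.Prime]
    (h5 : 5 ≤ p) (hb : Cfsg.Agent.H301.SY.Blk p K) (_hO : Cfsg.Agent.H301.SY.ThO p K) :
    Cfsg.Agent.H959.T5.NoTE p K := by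
  obtain ⟨e⟩ := h
  have := H513.NilpTh.finite
  have hcard : Nat.card K = 90745943887872000 := (Nat.card_congr e.toEquiv).trans H513.NilpTh.card
  by_cases hd : p ∣ 90745943887872000
  swap
  · exact NoTE.of_not_dvd (by rwa [hcard])
  have hps : p = 5 ∨ p = 7 ∨ p = 13 ∨ p = 19 ∨ p = 31 := by
    have h1 : p ∈ Nat.primeFactors 90745943887872000 := Nat.mem_primeFactors.2 ⟨hp.out, hd, by norm_num⟩
    have h2 : Nat.primeFactors 90745943887872000 = {2, 3, 5, 7, 13, 19, 31} := by
      rw [show (90745943887872000 : ℕ) = 2 ^ 15 * (3 ^ 10 * (5 ^ 3 * (7 ^ 2 * (13 * (19 * 31))))) by norm_num]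
      rw [Nat.primeFactors_mul (by norm_num) (by norm_num), Nat.primeFactors_mul (by norm_num) (by norm_num),
        Nat.primeFactors_mul (by norm_num) (by norm_num), Nat.primeFactors_mul (by norm_num) (by norm_num),
        Nat.primeFactors_mul (by norm_num) (by norm_num), Nat.primeFactors_mul (by norm_num) (by norm_num),
        Nat.primeFactors_prime_pow (by norm_num) (by norm_num), Nat.primeFactors_prime_pow (by norm_num) (by norm_num),
        Nat.primeFactors_prime_pow (by norm_num) (by norm_num), Nat.primeFactors_prime_pow (by norm_num) (by norm_num),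
        Nat.Prime.primeFactors (by norm_num), Nat.Prime.primeFactors (by norm_num), Nat.Prime.primeFactors (by norm_num)]
      rfl
    rw [h2] at h1
    simp only [Finset.mem_insert, Finset.mem_singleton] at h1
    omega
  have h8 : ∀ q : ℕ, ¬ 8 ∣ q * 1 → ∀ y : K, y ^ 8 = 1 → y ^ 4 ≠ 1 → y ^ q ≠ 1 := by
    intro q hq y hy8 hy4 hyq
    have h1 : orderOf y = 8 := by
      have := orderOf_eq_prime_pow (p := 2) (n := 2) (x := y) (by norm_num; exact hy4) (by norm_num; exact hy8)
      rw [this]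
      rfl
    apply hq
    rw [mul_one, ← h1]
    exact orderOf_dvd_of_pow_eq_one hyq
  obtain ⟨y, hy8, hy4⟩ := Th.exists_eight
  have hz8 : (e.symm y) ^ 8 = 1 := by rw [← map_pow, hy8, map_one]
  have hz4 : (e.symm y) ^ 4 ≠ 1 := by
    intro h1
    apply hy4
    rw [← map_pow] at h1
    exact (map_eq_one_iff e.symm e.symm.injective).1 h1
  rcases hps with rfl | rfl | rfl | rfl | rfl
  · exact (Th.noTE_five_seven (Or.inl rfl)).congr e
  · exact (Th.noTE_five_seven (Or.inr rfl)).congr e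
  · exact NoTE.congr e (NoTE.of_lw (cyclic_of_card (by rw [H513.NilpTh.card]; norm_num)) H669.SY.Th.thirteen)
  · exact NoTE.of_exp (y := e.symm y) (k := 3) (cyclic_of_card (by rw [hcard]; norm_num)) hb (by norm_num)
      hz8 (h8 _ (by norm_num) _ hz8 hz4)
  · exact NoTE.of_exp (y := e.symm y) (k := 3) (cyclic_of_card (by rw [hcard]; norm_num)) hb (by norm_num)
      hz8 (h8 _ (by norm_num) _ hz8 hz4)

end Cfsg.Agent.H478.T5
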